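import Mathlib
import Cfsg.Agent.H27.MG4
import Cfsg.Agent.H27.Res
import Cfsg.Agent.H14.PK4

/-! Primitivity on an orbit: `coatom_orb`; `st_ap`, `coatom_ap`; `inv_of_gens`. -/

namespace H14.Orb

open H13 PK PK.TS H27.MG

variable {G : Type*} [Group G] {w n : ℕ} {S : TS G w n} {K : Subgroup G}

/-- `m` points are reached from the images of `b` under `ts` -/
noncomputable def covO (w n m : ℕ) (gs ts : List ℕ) (b : ℕ) : Bool :=
  Nat.beq (orbS w ts b [] (nat_lit 0) (nat_lit 0) (orbC w gs n)) m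

theorem covO_spec {w n b : ℕ} {O : Finset ℕ} {gs ts : List ℕ} (e : covO w n O.card gs ts b = true) {P : ℕ → Prop} (h0 : ∀ p, P p → p ∈ O)
    (h1 : ∀ t ∈ ts, P (get w t b)) (h2 : ∀ t ∈ gs, ∀ p, P p → P (get w t p)) : ∀ i ∈ O, P i := by
  obtain ⟨st, M, c, I, e'⟩ := orbS_inv h1 (st := []) (M := 0) (c := 0) ⟨[], by simp⟩ (orbC w gs n)
  obtain ⟨st', M', l, a1, a2, a3, -⟩ := orbC_inv h2 n I
  rw [← e', show orbS w ts b [] 0 0 (orbC w gs n) = O.card from Nat.eq_of_beq_eq_true e] at a2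
  have : l.toFinset = O := Finset.eq_of_subset_of_card_le (fun x hx => h0 x (a3 x (List.mem_toFinset.1 hx)).1)
    (by rw [List.toFinset_card_of_nodup a1, a2])
  exact fun i hi => (a3 i (List.mem_toFinset.1 (this ▸ hi))).1

/-- the tables preserve the mask -/
noncomputable def invOk (w n M : ℕ) (Ls : List ℕ) : Bool := force M fun M =>
  allL (fun t => force t fun t => allLt (fun i => bn (bx (bt M (get w t i)) (bt M i))) n) Ls

theorem inv_of_gens {M : ℕ} {Ls : List ℕ} (h : ∀ t ∈ Ls, S.In ⊤ t) (e : invOk w n M Ls = true) :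
    ∀ g ∈ S.cl Ls, ∀ i < n, bt M (S.ap g i) = bt M i :=
  let Z : Subgroup G :=
    { carrier := {g | ∀ i < n, bt M (S.ap g i) = bt M i}
      one_mem' := fun i hi => by rw [S.ap_one hi]
      mul_mem' := fun a b i hi => by rw [S.ap_mul _ _ hi, a _ (S.ap_lt _ hi), b i hi]
      inv_mem' := fun {g} a i hi => by rw [← a _ (S.ap_lt _ hi), S.ap_ap_inv _ hi] }
  cl_le' (K := Z) fun t ht i hi => by
    rw [invOk, force_eq] at e
    have := allL_iff.1 e t ht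
    rw [force_eq] at this
    have := allLt_iff.1 this i hi
    rw [bn_iff, bx_iff, not_not] at this
    rw [(h t ht).ap_el]
    exact Bool.eq_iff_iff.2 this

/-- `hs` fix `b`, their orbits are represented by the images of `b` under `1, gs`, and `g :: hs` is transitive on the `m` points -/
noncomputable def primO (w n m b : ℕ) (hs gs : List ℕ) : Bool := band (band (band (Nat.blt b n) (Nat.blt 1 m))
  (band (allL (H14.PK.fixL w [b]) hs) (covO w n m hs (idv w n :: gs) b))) (allL (fun g => covO w n m (g :: hs) [idv w n] b) gs)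

theorem coatom_fin {b : ℕ} {O : Finset ℕ} {hs gs : List ℕ} (hO : ∀ g, S.ap g b ∈ O) (e : primO w n O.card b hs gs = true)
    (h1 : ∀ t ∈ hs, S.In ⊤ t) (h2 : ∀ t ∈ gs, S.In ⊤ t) : IsCoatom (S.st b) := by
  simp only [primO, band_eq_true, Nat.blt_eq, allL_iff, H14.PK.fixL, List.forall_mem_singleton, Nat.beq_eq] at e
  obtain ⟨⟨⟨hb, hn⟩, e1, e2⟩, e3⟩ := e
  have h3 : ∀ t ∈ hs, S.In (S.st b) t := fun t ht => (h1 t ht).of_el fun _ => ((h1 t ht).ap_el b).trans (e1 t ht)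
  have tr : ∀ {L : Subgroup G} {gs}, covO w n O.card gs [idv w n] b = true → (∀ t ∈ gs, S.In L t) → ∀ i ∈ O, ∃ g ∈ L, S.ap g b = i :=
    fun {L gs} e h => covO_spec e (fun _ ⟨g, _, c⟩ => c ▸ hO g) (by simpa [← S.tb_one] using ⟨1, L.one_mem, rfl⟩)
      fun t ht _ ⟨g, a, c⟩ => ⟨_, L.mul_mem (h t ht).el_mem a, by rw [S.ap_mul _ _ hb, c, (h t ht).ap_el]⟩
  have k : ∀ L, S.st b ≤ L → ∀ i ∈ O, (∃ g, S.ap g b = i) ∧ (i = b ∨ (gs ≠ [] ∧ ((∃ x ∈ L, S.ap x b = i) → L = ⊤))) := fun L hL =>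
    covO_spec e2 (fun p ⟨⟨g, c⟩, _⟩ => c ▸ hO g) (List.forall_mem_cons.2 ⟨⟨⟨1, by rw [← S.tb_one]⟩, Or.inl (by rw [get_idv S.hw S.hn, if_pos hb])⟩,
      fun t ht => ⟨⟨_, (h2 t ht).ap_el b⟩, Or.inr ⟨List.ne_nil_of_mem ht, fun ⟨x, a, c⟩ => eq_top_iff.2 fun y _ => by
        have : S.el t ∈ L := by
          rw [← mul_inv_cancel_left x (S.el t)]
          exact L.mul_mem a (hL fun _ => by rw [S.ap_mul _ _ hb, (h2 t ht).ap_el, ← c, S.ap_inv_ap _ hb])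
        obtain ⟨z, d, f⟩ := tr (L := L) (e3 t ht) (List.forall_mem_cons.2 ⟨(h2 t ht).of_el this,
          fun u hu => (h3 u hu).mono hL⟩) _ (hO y)
        rw [← mul_inv_cancel_left z y]
        exact L.mul_mem d (hL fun _ => by rw [S.ap_mul _ _ hb, ← f, S.ap_inv_ap _ hb])⟩⟩⟩)
      fun t ht p ⟨⟨g, a⟩, c⟩ => ⟨⟨S.el t * g, by rw [S.ap_mul _ _ hb, a, (h1 t ht).ap_el]⟩,
        c.imp (fun c : p = b => c ▸ e1 t ht) fun c => ⟨c.1, fun ⟨x, a', d⟩ => c.2 ⟨_, L.mul_mem (L.inv_mem (hL (h3 t ht).el_mem)) a', by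
          rw [S.ap_mul _ _ hb, d, ← (h1 t ht).ap_el, S.ap_inv_ap _ (a ▸ S.ap_lt g hb)]⟩⟩⟩
  refine ⟨fun c => ?_, fun L hL => ?_⟩
  · obtain ⟨i, hi, d⟩ := Finset.exists_mem_ne hn b
    obtain ⟨x, rfl⟩ := (k _ le_rfl i hi).1
    exact d (c.ge (Subgroup.mem_top x) hb)
  · obtain ⟨x, a, d⟩ := SetLike.exists_of_lt hL
    exact ((k L hL.le _ (hO x)).2.resolve_left fun c => d fun _ => c).2 ⟨x, a, rfl⟩

theorem coatom_orb {b m M : ℕ} {Ls hs gs : List ℕ} (h : ∀ t ∈ Ls, S.In ⊤ t) (hc : S.cl Ls = ⊤) (h1 : ∀ t ∈ hs, S.In ⊤ t) (h2 : ∀ t ∈ gs, S.In ⊤ t)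
    (e : band (band (invOk w n M Ls) (band (bt M b) (Nat.blt b n))) (primO w n m b hs gs) = true)
    (hm : ((Finset.range n).filter fun i => bt M i = true).card = m) : IsCoatom (S.st b) := by
  simp only [band_eq_true, Nat.blt_eq] at e
  exact coatom_fin (fun g => Finset.mem_filter.2 ⟨Finset.mem_range.2 (S.ap_lt g e.1.2.2),
    (inv_of_gens h e.1.1 g (hc ▸ trivial) b e.1.2.2).trans e.1.2.1⟩) (hm ▸ e.2) h1 h2

theorem st_ap (g : G) {b : ℕ} (hb : b < n) : (S.st b).map (MulAut.conj g).toMonoidHom = S.st (S.ap g b) := by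
  ext x
  rw [Subgroup.mem_map_equiv, mem_st hb, mem_st (S.ap_lt g hb), MulAut.conj_symm_apply, S.ap_mul _ _ hb, S.ap_mul _ _ (S.ap_lt _ hb)]
  exact ⟨fun h => by rw [← S.ap_ap_inv g (S.ap_lt x (S.ap_lt g hb)), h], fun h => by rw [h, S.ap_inv_ap _ hb]⟩

theorem coatom_ap (g : G) {b : ℕ} (hb : b < n) (h : IsCoatom (S.st b)) : IsCoatom (S.st (S.ap g b)) :=
  st_ap g hb ▸ ((MulAut.conj g).mapSubgroup.isCoatom_iff _).2 h

end H14.Orb
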