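import Mathlib

/-! Ree's inequality for two permutations, through fixed spaces of isometries. -/

namespace H14

open Module MulAction

section

variable {E : Type*} [NormedAddCommGroup E] [InnerProductSpace ℝ E] [FiniteDimensional ℝ E]

/-- the fixed space of an isometry -/
def fx (a : E ≃ₗᵢ[ℝ] E) : Submodule ℝ E := LinearMap.eqLocus (a.toLinearEquiv : E →ₗ[ℝ] E) LinearMap.id

omit [FiniteDimensional ℝ E] in
theorem mem_fx {a : E ≃ₗᵢ[ℝ] E} {v : E} : v ∈ fx a ↔ a v = v := Iff.rfl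

theorem scott (a b : E ≃ₗᵢ[ℝ] E) :
    finrank ℝ (fx a) + finrank ℝ (fx b) + finrank ℝ (fx (a * b)) ≤ finrank ℝ E + 2 * finrank ℝ ↥(fx a ⊓ fx b) := by
  let φ : fx (a * b) →ₗ[ℝ] E := (LinearMap.id - (b.toLinearEquiv : E →ₗ[ℝ] E)).domRestrict _
  have h1 := φ.finrank_range_add_finrank_ker
  have h2 : finrank ℝ φ.range ≤ finrank ℝ (fx a ⊔ fx b)ᗮ := Submodule.finrank_mono (by
    rintro _ ⟨⟨v, hv⟩, rfl⟩
    rw [← Submodule.inf_orthogonal]
    change v - b v ∈ _
    refine ⟨fun u hu => ?_, fun u hu => ?_⟩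
    · rw [inner_sub_right, ← a.inner_map_map u (b v), mem_fx.1 hu, show a (b v) = v from hv, sub_self]
    · rw [inner_sub_right, ← b.inner_map_map u v, mem_fx.1 hu, sub_self])
  have h3 : finrank ℝ φ.ker ≤ finrank ℝ ↥(fx a ⊓ fx b) := by
    rw [← Submodule.finrank_map_subtype_eq]
    refine Submodule.finrank_mono ?_
    rintro _ ⟨⟨v, hv⟩, h, rfl⟩
    have c : b v = v := (sub_eq_zero.1 h).symm
    exact ⟨(congrArg a c).symm.trans hv, c⟩
  have h4 := (fx a ⊔ fx b).finrank_add_finrank_orthogonal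
  have h5 := Submodule.finrank_sup_add_finrank_inf_eq (fx a) (fx b)
  omega

end

variable {α : Type*} [Fintype α] [DecidableEq α]

/-- the isometry of a permutation -/
noncomputable def pI (g : Equiv.Perm α) : EuclideanSpace ℝ α ≃ₗᵢ[ℝ] EuclideanSpace ℝ α := LinearIsometryEquiv.piLpCongrLeft 2 ℝ ℝ g

omit [DecidableEq α] in
theorem mem_fx_pI {g : Equiv.Perm α} {v : EuclideanSpace ℝ α} : v ∈ fx (pI g) ↔ ∀ p, v (g p) = v p :=
  ⟨fun h p => by simpa [pI] using congrFun (congrArg WithLp.ofLp (mem_fx.1 h).symm) (g p),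
    fun h => mem_fx.2 (PiLp.ext fun p => by simpa [pI] using (h (g.symm p)).symm)⟩

omit [DecidableEq α] in
theorem pI_mul (g h : Equiv.Perm α) : pI (g * h) = pI g * pI h := by
  ext v p; simp [pI, Equiv.Perm.mul_def]

theorem le_fx (g : Equiv.Perm α) :
    Fintype.card α + (orderOf g - 1) * g.supportᶜ.card ≤ finrank ℝ (fx (pI g)) * orderOf g := by
  classical
  have a := sum_card_fixedBy_eq_card_orbits_mul_card_group (Subgroup.zpowers g) α
  rw [Fintype.card_zpowers] at a
  let ψ : (Quotient (orbitRel (Subgroup.zpowers g) α) → ℝ) →ₗ[ℝ] fx (pI g) :=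
    LinearMap.codRestrict _ ((WithLp.linearEquiv 2 ℝ (α → ℝ)).symm.toLinearMap.comp (LinearMap.funLeft ℝ ℝ Quotient.mk''))
      fun f => mem_fx_pI.2 fun p => congrArg f (Quotient.sound' ⟨⟨g, Subgroup.mem_zpowers g⟩, rfl⟩)
  have b := LinearMap.finrank_le_finrank_of_injective (f := ψ) fun f f' e => funext fun q => by
    obtain ⟨p, rfl⟩ := Quotient.exists_rep q
    exact congrFun (congrArg WithLp.ofLp (Subtype.mk.inj e)) p
  rw [finrank_fintype_fun_eq_card] at b
  refine le_trans ?_ (a.le.trans (Nat.mul_le_mul_right _ b))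
  rw [← Finset.add_sum_erase _ _ (Finset.mem_univ 1), ← Fintype.card_zpowers, ← Finset.card_univ (α := Subgroup.zpowers g),
    ← Finset.card_erase_of_mem (Finset.mem_univ 1)]
  refine add_le_add (by simp) (Finset.card_nsmul_le_sum _ _ _ fun x _ => ?_)
  rw [← Fintype.card_coe]
  refine Fintype.card_le_of_injective (fun p => ⟨p.1, ?_⟩) fun _ _ e => Subtype.ext (Subtype.mk.inj e)
  obtain ⟨_, k, rfl⟩ := x
  exact Equiv.Perm.zpow_apply_eq_self_of_apply_eq_self (Equiv.Perm.notMem_support.1 (Finset.mem_compl.1 p.2)) k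

omit [DecidableEq α] in
theorem fx_inf_le {g h : Equiv.Perm α} {ι : Type*} [Fintype ι] (r : ι → α)
    (ht : ∀ p, ∃ k ∈ Subgroup.closure {g, h}, ∃ i, k (r i) = p) : finrank ℝ ↥(fx (pI g) ⊓ fx (pI h)) ≤ Fintype.card ι := by
  rw [← finrank_fintype_fun_eq_card ℝ]
  refine LinearMap.finrank_le_finrank_of_injective (f := ((LinearMap.funLeft ℝ ℝ r).comp
    (WithLp.linearEquiv 2 ℝ (α → ℝ)).toLinearMap).domRestrict _) fun v w e => Subtype.ext (PiLp.ext fun p => ?_)
  have a : ∀ v : ↥(fx (pI g) ⊓ fx (pI h)), ∀ k ∈ Subgroup.closure {g, h}, ∀ p, v.1 (k p) = v.1 p := fun v k hk => by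
    induction hk using Subgroup.closure_induction with
    | mem x hx => rcases hx with rfl | rfl; exacts [mem_fx_pI.1 v.2.1, mem_fx_pI.1 v.2.2]
    | one => exact fun _ => rfl
    | mul x y _ _ a b => exact fun p => (a _).trans (b _)
    | inv x _ a => exact fun p => by simpa using (a (x⁻¹ p)).symm
  obtain ⟨k, hk, i, rfl⟩ := ht p
  rw [a v k hk, a w k hk]
  exact congrFun e i

theorem dvd_support {g : Equiv.Perm α} (h : (orderOf g).Prime) : orderOf g ∣ g.support.card := by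
  obtain ⟨n, e⟩ := Equiv.Perm.cycleType_prime_order h
  rw [← g.sum_cycleType, e, Multiset.sum_replicate]
  exact Dvd.intro_left _ rfl

end H14
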